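import Cfsg.Agent.H259.QF.RkK
import Cfsg.Agent.H297.QF.Su
import Cfsg.Agent.LieClassical.HermPerfect
import Cfsg.Agent.KFacts.TwESix.Dat

/-!
# S2491, row F4 = `²E₆(2)`: PERF

`V₁ = [V₁, P₁]` and `P₁` is perfect.
-/

set_option autoImplicit false
set_option linter.unusedSectionVars false
set_option maxRecDepth 20000

namespace Cfsg.Agent.H259.QF

open CoxeterSystem Cfsg.Agent.ChevalleyStructure.CoxeterGeom Cfsg.Agent.Tits.Roots Cfsg.Agent.Tits.Core
  Cfsg.Agent.Nodes.Reps Cfsg.Agent.Nodes.BNOf Cfsg.Agent.Nodes.Bruhat Cfsg.Agent.Nodes.LeviDec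
  Cfsg.Agent.KFacts.RgdSL
open Cfsg.Agent.Nodes.RGDTwE6 (isCartan)
open Cfsg.Agent.KFacts.TwESix.Comb (rho bf mem_rts rts a2 exists_rep_short finiteW)
open Cfsg.Agent.H326.QS.VP (Q NotJ_eq eq_of_card eq_of_long)
open Cfsg.Agent.H231.QF (KK cs th V j1 P Lv)
open Cfsg.Lie Subgroup
open scoped commutatorElement

universe u

variable {F : Type u} [Field F] [Fintype F] (hF : Fintype.card F = 4) {φ : F →+* F} (hφ : ∀ t, φ t = t ^ 2)

/-- every long root of `V` except `θ` is the sum of two long roots, one in `V`, one in the Levi complement -/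
theorem tab_long : ∀ b ∈ rts, 1 ≤ b 0 → bf b b = 4 → b ≠ rho → ∃ a ∈ rts, ∃ c ∈ rts, a 0 = 0 ∧ 1 ≤ c 0 ∧
    bf a a = 4 ∧ bf c c = 4 ∧ bf a c = -2 ∧ a + c = b := by decide +kernel

theorem tab_len : ∀ b ∈ rts, bf b b = 4 ∨ bf b b = 2 := by decide +kernel

include hF hφ

theorem X_le_comm {b : Fin 4 → ℤ} (hb : b ∈ rts) (h1 : 1 ≤ b 0) :
    Cfsg.Agent.H231.QF.X φ b ≤ ⁅V φ j1, P φ j1⁆ := by
  have : CharP F 2 := H150.QF.charTwo_of hF
  have : Fact (Nat.Prime 2) := ⟨Nat.prime_two⟩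
  have hW : Finite CoxeterMatrix.F₄.Group := finiteW cs
  have R := H150.QF.rgdK hF hφ
  have hXV : ∀ c ∈ rts, 1 ≤ c 0 → Cfsg.Agent.H231.QF.X φ c ≤ V φ j1 := by
    intro c hc hc0
    rw [V_eq']
    exact RGD.le_Sup (S := Q Pv) ⟨hc, hc0⟩
  rcases tab_len b hb with hl | hs
  · by_cases hbr : b = rho
    · -- the highest root
      subst hbr
      obtain ⟨hc1, -, hc3, hc4⟩ := H594.QF.V1_struct hF hφ
      obtain ⟨x, hx, y, hy, hxy⟩ : ∃ x ∈ V φ j1, ∃ y ∈ V φ j1, x * y ≠ y * x := by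
        by_contra hno
        push Not at hno
        have h3 : V φ j1 ≤ Cfsg.Agent.H231.QF.X φ th := fun x hx => hc3 x hx (hno x hx)
        have h4 : Nat.card (V φ j1) ≤ Nat.card (Cfsg.Agent.H231.QF.X φ th) := Nat.card_le_card_of_injective _
          (Subgroup.inclusion_injective h3)
        have h5 : Nat.card (Cfsg.Agent.H231.QF.X φ th) = 2 := by
          obtain ⟨w, hw⟩ := Cfsg.Agent.KFacts.TwESix.Comb.exists_rep_long cs
            (Cfsg.Agent.KFacts.TwESix.Comb.rho_root cs) (by decide +kernel)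
          have h6 := Cfsg.Agent.Nodes.CardSup.card_X_rep R w (isRoot_sr cs isCartan 0)
          have h7 : rep cs isCartan w (sr 0) = th := hw
          rw [h7] at h6
          exact h6.trans (card_sr0 hF hφ)
        rw [hc4, h5] at h4
        norm_num at h4
      have h3 := hc1 x hx y hy
      have h4 : x * y * x⁻¹ * y⁻¹ ≠ 1 := by
        intro h
        apply hxy
        calc x * y = (x * y * x⁻¹ * y⁻¹) * (y * x) := by group
          _ = y * x := by rw [h, one_mul]
      intro z hz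
      by_cases hz1 : z = 1
      · rw [hz1]; exact one_mem _
      · have h5 : z = x * y * x⁻¹ * y⁻¹ := eq_of_long R (eq_of_card (card_sr0 hF hφ)) (x := rho) hb hl hz h3 hz1 h4
        rw [h5, ← commutatorElement_def]
        exact commutator_mem_commutator hx (VJ_le_PJ hy)
    · obtain ⟨a, ha, c, hc, ha0, hc0, hla, hlc, hac, rfl⟩ := tab_long b hb h1 hl hbr
      have hA : A2 cs isCartan a c := a2 cs ((mem_rts cs).2 ha) ((mem_rts cs).2 hc) (by rw [hla, hlc]) (by
        rw [hac, hla]; norm_num)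
      have hne : ∀ {x : Fin 4 → ℤ}, IsRoot cs isCartan x → ∃ u ∈ Cfsg.Agent.H231.QF.X φ x, u ≠ 1 := by
        intro x hx
        have := X_ne_bot R hx
        rw [Subgroup.ne_bot_iff_exists_ne_one] at this
        obtain ⟨⟨u, hu⟩, h1⟩ := this
        exact ⟨u, hu, fun h2 => h1 (Subtype.ext h2)⟩
      obtain ⟨u, hu, hu1⟩ := hne hA.rx
      obtain ⟨v, hv, hv1⟩ := hne ((mem_rts cs).2 hc)
      have h3 := hA.comm_mem R hu hv
      have h4 := hA.comm_ne_one R hu hu1 hv hv1
      intro z hz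
      by_cases hz1 : z = 1
      · rw [hz1]; exact one_mem _
      · have h5 : z = ⁅u, v⁆ := eq_of_long R (eq_of_card (card_sr0 hF hφ)) hb hl hz h3 hz1 h4
        rw [h5, Subgroup.commutator_comm]
        refine commutator_mem_commutator (LJ_le_PJ (X_le_LJ ?_ hu)) (hXV c hc hc0 hv)
        rw [j1_eq, Cfsg.Agent.H326.QS.VP.RootsJ_eq]
        exact ⟨ha, ha0⟩
  · have hb' := (mem_rts cs).2 hb
    obtain ⟨w, hw⟩ := exists_rep_short cs hb' hs
    have hcard : 2 < Nat.card (Cfsg.Agent.H231.QF.X φ b) := by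
      have h3 := Cfsg.Agent.Nodes.CardSup.card_X_rep R w (isRoot_sr cs isCartan 3)
      rw [hw] at h3
      have h8 := Cfsg.Agent.KFacts.TwESix.Dat.card_lt hφ (H150.QF.hqq_of hF) hF one_lt_two
      rw [h3]
      exact lt_of_eq_of_lt (card_sr0 hF hφ).symm h8
    intro z hz
    by_cases hz1 : z = 1
    · rw [hz1]; exact one_mem _
    · obtain ⟨v, hv, hv1, hvz⟩ : ∃ v ∈ Cfsg.Agent.H231.QF.X φ b, v ≠ 1 ∧ z * v ≠ 1 := by
        by_contra hno
        push Not at hno
        have : ∀ x : Cfsg.Agent.H231.QF.X φ b, x = 1 ∨ x = ⟨z⁻¹, inv_mem hz⟩ := by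
          intro x
          by_cases hx1 : (x : KK F) = 1
          · exact Or.inl (Subtype.ext hx1)
          · exact Or.inr (Subtype.ext (eq_inv_of_mul_eq_one_right (hno x x.2 hx1)))
        have h4 : Nat.card (Cfsg.Agent.H231.QF.X φ b) ≤ 2 := by
          classical
          have : Function.Surjective (fun i : Bool => if i then (1 : Cfsg.Agent.H231.QF.X φ b) else ⟨z⁻¹, inv_mem hz⟩) := by
            intro x
            rcases this x with h | h
            · exact ⟨true, by simp [h]⟩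
            · exact ⟨false, by simp [h]⟩
          have h5 := Nat.card_le_card_of_surjective _ this
          simpa using h5
        omega
      obtain ⟨t, ht, e⟩ := Cfsg.Agent.KFacts.TwESix.Facts.exists_tor R hb' hv hv1 (mul_mem hz hv) hvz
      have h3 : z = ⁅t, v⁆ := by
        rw [commutatorElement_def, e, mul_inv_cancel_right]
      rw [h3, Subgroup.commutator_comm]
      exact commutator_mem_commutator (LJ_le_PJ (T_le_LJ ht)) (hXV b hb h1 hv)

/-- `V₁ = [V₁, P₁]` -/
theorem V_le_comm : V φ j1 ≤ ⁅V φ j1, P φ j1⁆ := by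
  conv_lhs => rw [V_eq']
  exact RGD.Sup_le fun b hb => X_le_comm hF hφ hb.1 hb.2

theorem Lv_le_comm : Lv φ j1 ≤ ⁅Lv φ j1, Lv φ j1⁆ := by
  obtain ⟨f, hf, -⟩ := H297.QF.Su.exists_su6 hF hφ
  have h1 : _root_.commutator (SU 6 F 2) = ⊤ :=
    Cfsg.Agent.LieClassical.HermPerfect.commutator_SU_eq_top (by rw [hF]; norm_num) (by norm_num) (by norm_num)
  rw [← hf, MonoidHom.range_eq_map, ← map_commutator, ← _root_.commutator_def, h1]

/-- **PERF** : `P₁` is perfect -/
theorem perf : ⁅P φ j1, P φ j1⁆ = P φ j1 := by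
  apply le_antisymm
  · exact Subgroup.commutator_le_self _
  · refine sup_le ?_ ?_
    · exact (Lv_le_comm hF hφ).trans (commutator_mono LJ_le_PJ LJ_le_PJ)
    · exact (V_le_comm hF hφ).trans (commutator_mono VJ_le_PJ le_rfl)

end Cfsg.Agent.H259.QF
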