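import Cfsg.Agent.H326.QS.VP
import Cfsg.Agent.Nodes.CardSup

/-!
# S2491, row F4 = `²E₆(2)`, K7 (B): the element `u u'` of order 3 of a long root `SL₂(2)` has index `≥ 2¹⁰` on `V₁ / X_θ`

Generic: a root group datum of type `F₄` whose long root groups have order 2, `J = {1, 2, 3}`, `V = VJ`, `θ = rho`;
`u ∈ X (sr 1)`, `u' ∈ X (-sr 1)` nontrivial.
-/

set_option autoImplicit false
set_option linter.unusedSectionVars false
set_option maxRecDepth 20000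

namespace Cfsg.Agent.H259.QF

open CoxeterSystem Cfsg.Agent.ChevalleyStructure.CoxeterGeom Cfsg.Agent.Tits.Roots Cfsg.Agent.Tits.Core
  Cfsg.Agent.Tits.RootComb Cfsg.Agent.Nodes.Reps Cfsg.Agent.Nodes.BNOf Cfsg.Agent.Nodes.Coroot
  Cfsg.Agent.Nodes.StabComb Cfsg.Agent.Nodes.Bruhat Cfsg.Agent.Nodes.OppDec Cfsg.Agent.Nodes.LeviDec
  Cfsg.Agent.KFacts.RgdSL Cfsg.Agent.KFacts.RgdTI Cfsg.Agent.Nodes.RGDTwE6 Cfsg.Agent.KFacts.TwESix.Comb
  Cfsg.Agent.KFacts.TwESix.Btw Cfsg.Agent.H326.QS.VP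
open scoped commutatorElement

/-- the roots of `V` -/
abbrev Pv (x : Fin 4 → ℤ) : Prop := 1 ≤ x 0

/-- the roots moved by `X (-sr 1)` (and `θ`) -/
abbrev Pp (x : Fin 4 → ℤ) : Prop := 1 ≤ x 0 ∧ (x = rho ∨ 0 < bf x (sr 1))

/-- the roots moved by `X (sr 1)` (and `θ`) -/
abbrev Pm (x : Fin 4 → ℤ) : Prop := 1 ≤ x 0 ∧ (x = rho ∨ bf x (sr 1) < 0)

/-- the union -/
abbrev Pc (x : Fin 4 → ℤ) : Prop := 1 ≤ x 0 ∧ (x = rho ∨ bf x (sr 1) ≠ 0)

variable {W Y : Type*} [Group W] [Group Y] {cs : CoxeterSystem CoxeterMatrix.F₄ W} {p : ℕ} {T : Subgroup Y}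
  {n : Fin 4 → Y} {X : (Fin 4 → ℤ) → Subgroup Y}

theorem relIndex_mul_card' {G : Type*} [Group G] (A B : Subgroup G) (h : A ≤ B) :
    A.relIndex B * Nat.card A = Nat.card B := by
  rw [← Subgroup.index_mul_card (A.subgroupOf B), Nat.card_congr (Subgroup.subgroupOfEquivOfLe h).toEquiv]
  rfl

theorem closed_Q {P : (Fin 4 → ℤ) → Prop}
    (hP : ∀ x ∈ rts, P x → ∀ y ∈ rts, P y → x = y ∨ (x ≠ -y ∧ ∀ z ∈ rts, bt x y z → P z)) :
    Cfsg.Agent.Nodes.Unique.Closed cs isCartan (Q P) := by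
  rintro x ⟨hx, hPx⟩ y ⟨hy, hPy⟩ z hz
  have hx' := (mem_rts cs).2 hx
  have hy' := (mem_rts cs).2 hy
  by_cases hxy : x = y
  · subst hxy
    rw [Cfsg.Agent.Nodes.Unique.btwn_self hx' hz]
    exact ⟨hx, hPx⟩
  rcases hP x hx hPx y hy hPy with h1 | ⟨h1, h2⟩
  · exact absurd h1 hxy
  · obtain ⟨h3, h4⟩ := btwn_spec cs hx' hy' hxy h1 hz
    exact ⟨h3, h2 z h3 h4⟩

theorem pos_Q {P : (Fin 4 → ℤ) → Prop} (hP : ∀ x ∈ rts, P x → ∀ k, 0 ≤ x k) :
    Q P ⊆ RGD.Pos cs isCartan := fun x hx => ⟨(mem_rts cs).2 hx.1, fun k => hP x hx.1 hx.2 k⟩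

theorem inf_Q (R : RGD cs isCartan p T n X) :
    RGD.Sup X (Q Pm) ⊓ RGD.Sup X (Q Pp) = RGD.Sup X (Q (fun x => x = rho)) := by
  have : Finite W := finiteW cs
  have h := Cfsg.Agent.Nodes.Unique.inf_eq_fut R (1 : W) (S := Q Pm) (S' := Q Pp)
    (by rw [Cfsg.Agent.Nodes.Unique.fut_one]; exact pos_Q (by decide +kernel))
    (by rw [Cfsg.Agent.Nodes.Unique.fut_one]; exact pos_Q (by decide +kernel))
    (closed_Q (by decide +kernel)) (closed_Q (by decide +kernel))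
  rw [h]
  congr 1
  ext x
  have key : ∀ x ∈ rts, (Pm x ∧ Pp x ↔ x = rho) := by decide +kernel
  constructor
  · rintro ⟨h1, h2⟩
    exact ⟨h1.1, (key x h1.1).1 ⟨h1.2, h2.2⟩⟩
  · rintro ⟨h1, h2⟩
    have h3 := (key x h1).2 h2
    exact ⟨⟨h1, h3.1⟩, h1, h3.2⟩

section

variable (R : RGD cs isCartan p T n X)

include R

/-- a root group commutes with `Sup X (Q P)` -/
theorem comm_Q (hlr : ∀ a, IsRoot cs isCartan a → bf a a = 4 → LR R a) {a : Fin 4 → ℤ} (ha : a ∈ rts) (hl : bf a a = 4)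
    {P : (Fin 4 → ℤ) → Prop} (hP : ∀ x ∈ rts, P x → 0 ≤ bf x a) {u g : Y} (hu : u ∈ X a)
    (hg : g ∈ RGD.Sup X (Q P)) : u * g = g * u := by
  have h3 : RGD.Sup X (Q P) ≤ Subgroup.centralizer ({u} : Set Y) := by
    refine RGD.Sup_le fun x hx c hc => ?_
    rw [Subgroup.mem_centralizer_singleton_iff]
    exact (hlr a ((mem_rts cs).2 ha) hl).comm x ((mem_rts cs).2 hx.1)
      ((ge_iff cs ((mem_rts cs).2 ha) hl).2 (hP x hx.1 hx.2)) c hc u hu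
  exact (Subgroup.mem_centralizer_singleton_iff.1 (h3 hg)).symm

/-- `V` normalises `Sup X (Q P)`, if `V / X θ` is commutative -/
theorem norm_Q (hV : ∀ v ∈ RGD.Sup X (Q Pv), ∀ w ∈ RGD.Sup X (Q Pv), v * w * v⁻¹ * w⁻¹ ∈ X rho)
    {P : (Fin 4 → ℤ) → Prop} (h0 : P rho) (hP : ∀ x ∈ rts, P x → Pv x) {v g : Y}
    (hv : v ∈ RGD.Sup X (Q Pv)) (hg : g ∈ RGD.Sup X (Q P)) : v * g * v⁻¹ ∈ RGD.Sup X (Q P) := by
  have h1 : v * g * v⁻¹ * g⁻¹ ∈ RGD.Sup X (Q P) :=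
    RGD.le_Sup (S := Q P) ⟨by decide +kernel, h0⟩ (hV v hv g (RGD.Sup_mono (fun x hx => (⟨hx.1, hP x hx.1 hx.2⟩ : x ∈ Q Pv)) hg))
  have h2 := mul_mem h1 hg
  rwa [inv_mul_cancel_right] at h2

/-- splitting off -/
theorem split' (hV : ∀ v ∈ RGD.Sup X (Q Pv), ∀ w ∈ RGD.Sup X (Q Pv), v * w * v⁻¹ * w⁻¹ ∈ X rho)
    {P P₁ P₂ : (Fin 4 → ℤ) → Prop} (h0 : ∀ x ∈ rts, P x → P₁ x ∨ P₂ x) (h2 : P₂ rho) (h3 : ∀ x ∈ rts, P₁ x → Pv x)
    (h4 : ∀ x ∈ rts, P₂ x → Pv x) {g : Y} (hg : g ∈ RGD.Sup X (Q P)) :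
    ∃ a ∈ RGD.Sup X (Q P₁), ∃ b ∈ RGD.Sup X (Q P₂), g = a * b := by
  have hn : RGD.Sup X (Q P₁) ≤ Subgroup.normalizer (RGD.Sup X (Q P₂) : Set Y) := by
    intro v hv
    have hv' : v ∈ RGD.Sup X (Q Pv) := RGD.Sup_mono (fun x hx => (⟨hx.1, h3 x hx.1 hx.2⟩ : x ∈ Q Pv)) hv
    rw [Subgroup.mem_normalizer_iff]
    intro y
    constructor
    · exact fun hy => norm_Q R hV h2 h4 hv' hy
    · intro hy
      have h5 := norm_Q R hV h2 h4 (inv_mem hv') hy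
      have e : v⁻¹ * (v * y * v⁻¹) * v⁻¹⁻¹ = y := by group
      rwa [e] at h5
  have h5 : g ∈ ((RGD.Sup X (Q P₁) ⊔ RGD.Sup X (Q P₂) : Subgroup Y) : Set Y) := by
    refine (?_ : RGD.Sup X (Q P) ≤ _) hg
    refine RGD.Sup_le fun z hz => ?_
    rcases h0 z hz.1 hz.2 with h | h
    · exact le_trans (RGD.le_Sup (S := Q P₁) ⟨hz.1, h⟩) le_sup_left
    · exact le_trans (RGD.le_Sup (S := Q P₂) ⟨hz.1, h⟩) le_sup_right
  rw [Subgroup.coe_mul_of_left_le_normalizer_right _ _ hn, Set.mem_mul] at h5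
  obtain ⟨a, ha, b, hb, e⟩ := h5
  exact ⟨a, ha, b, hb, e.symm⟩

/-- commutators of a root group with `V` -/
theorem comm_mem_Q {a : Fin 4 → ℤ} (ha : a ∈ rts) {P : (Fin 4 → ℤ) → Prop}
    (hn : ∀ {v g : Y}, v ∈ RGD.Sup X (Q Pv) → g ∈ RGD.Sup X (Q P) → v * g * v⁻¹ ∈ RGD.Sup X (Q P))
    (hP : ∀ x ∈ rts, Pv x → a ≠ x ∧ a ≠ -x ∧ ∀ z ∈ rts, bt a x z → P z) {u : Y} (hu : u ∈ X a)
    {g : Y} (hg : g ∈ RGD.Sup X (Q Pv)) : u * g * u⁻¹ * g⁻¹ ∈ RGD.Sup X (Q P) := by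
  let D : Subgroup Y :=
    { carrier := {g | g ∈ RGD.Sup X (Q Pv) ∧ u * g * u⁻¹ * g⁻¹ ∈ RGD.Sup X (Q P)}
      one_mem' := ⟨one_mem _, by
        rw [mul_one, mul_inv_cancel, inv_one, mul_one]; exact one_mem _⟩
      mul_mem' := by
        rintro g g' ⟨h1, h2⟩ ⟨h3, h4⟩
        refine ⟨mul_mem h1 h3, ?_⟩
        have e : u * (g * g') * u⁻¹ * (g * g')⁻¹ =
            (u * g * u⁻¹ * g⁻¹) * (g * (u * g' * u⁻¹ * g'⁻¹) * g⁻¹) := by group
        rw [e]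
        exact mul_mem h2 (hn h1 h4)
      inv_mem' := by
        rintro g ⟨h1, h2⟩
        refine ⟨inv_mem h1, ?_⟩
        have e : u * g⁻¹ * u⁻¹ * (g⁻¹)⁻¹ = g⁻¹ * (u * g * u⁻¹ * g⁻¹)⁻¹ * (g⁻¹)⁻¹ := by group
        rw [e]
        exact hn (inv_mem h1) (inv_mem h2) }
  have h1 : RGD.Sup X (Q Pv) ≤ D := by
    refine RGD.Sup_le fun x hx c hc => ⟨RGD.le_Sup hx hc, ?_⟩
    obtain ⟨h2, h3, h4⟩ := hP x hx.1 hx.2
    have h5 := R.comm a x ((mem_rts cs).2 ha) ((mem_rts cs).2 hx.1) h2 h3 u hu c hc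
    rw [← commutatorElement_def]
    refine R.btw_le_Sup (fun z hz => ?_) h5
    obtain ⟨h6, h7⟩ := btwn_spec cs ((mem_rts cs).2 ha) ((mem_rts cs).2 hx.1) h2 h3 hz
    exact ⟨h6, h4 z h6 h7⟩
  exact (h1 hg).2

section
variable (hlr : ∀ a, IsRoot cs isCartan a → bf a a = 4 → LR R a)

include hlr

/-- `V` commutes with `X θ` -/
theorem comm_rho {u g : Y} (hu : u ∈ X rho) (hg : g ∈ RGD.Sup X (Q Pv)) : u * g = g * u :=
  comm_Q R hlr (a := rho) (by decide +kernel) (by decide +kernel) (P := Pv) (by decide +kernel) hu hg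

/-- **the core**: no nontrivial fixed points of `u u'` on `A₋ A₊` modulo `X θ` -/
theorem core (hV : ∀ v ∈ RGD.Sup X (Q Pv), ∀ w ∈ RGD.Sup X (Q Pv), v * w * v⁻¹ * w⁻¹ ∈ X rho) (h2 : ∀ a ∈ X (sr 0), ∀ b ∈ X (sr 0), a ≠ 1 → b ≠ 1 → a = b) {u u' : Y} (hu : u ∈ X (sr 1)) (hu1 : u ≠ 1)
    (hu' : u' ∈ X (-sr 1)) (hu1' : u' ≠ 1) {x : Y} (hx : x ∈ RGD.Sup X (Q Pc))
    (hfix : (u * u') * x * (u * u')⁻¹ * x⁻¹ ∈ X rho) : x ∈ X rho := by
  have hrho : ∀ {g : Y}, g ∈ RGD.Sup X (Q (fun x => x = rho)) ↔ g ∈ X rho := by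
    intro g; rw [Sup_single R (by decide +kernel)]
  have hZp : ∀ {g : Y}, g ∈ X rho → g ∈ RGD.Sup X (Q Pp) := fun {g} hg =>
    RGD.le_Sup (S := Q Pp) ⟨by decide +kernel, by decide +kernel⟩ hg
  have hZm : ∀ {g : Y}, g ∈ X rho → g ∈ RGD.Sup X (Q Pm) := fun {g} hg =>
    RGD.le_Sup (S := Q Pm) ⟨by decide +kernel, by decide +kernel⟩ hg
  have hpv : ∀ {g : Y}, g ∈ RGD.Sup X (Q Pp) → g ∈ RGD.Sup X (Q Pv) := fun {g} hg =>
    RGD.Sup_mono (fun x hx => (⟨hx.1, hx.2.1⟩ : x ∈ Q Pv)) hg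
  have hmv : ∀ {g : Y}, g ∈ RGD.Sup X (Q Pm) → g ∈ RGD.Sup X (Q Pv) := fun {g} hg =>
    RGD.Sup_mono (fun x hx => (⟨hx.1, hx.2.1⟩ : x ∈ Q Pv)) hg
  have hmeet : ∀ {g : Y}, g ∈ RGD.Sup X (Q Pm) → g ∈ RGD.Sup X (Q Pp) → g ∈ X rho := by
    intro g h1 h3
    rw [← hrho, ← inf_Q R]
    exact ⟨h1, h3⟩
  -- commuting
  have cp : ∀ {g : Y}, g ∈ RGD.Sup X (Q Pp) → u * g = g * u := fun {g} hg =>
    comm_Q R hlr (a := sr 1) (by decide +kernel) (by decide +kernel) (P := Pp) (by decide +kernel) hu hg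
  have cm : ∀ {g : Y}, g ∈ RGD.Sup X (Q Pm) → u' * g = g * u' := fun {g} hg =>
    comm_Q R hlr (a := -sr 1) (by decide +kernel) (by decide +kernel) (P := Pm) (by decide +kernel) hu' hg
  have np : ∀ {v g : Y}, v ∈ RGD.Sup X (Q Pv) → g ∈ RGD.Sup X (Q Pp) → v * g * v⁻¹ ∈ RGD.Sup X (Q Pp) :=
    fun {v g} => norm_Q R hV (by decide +kernel) (fun x _ h => h.1)
  have nm : ∀ {v g : Y}, v ∈ RGD.Sup X (Q Pv) → g ∈ RGD.Sup X (Q Pm) → v * g * v⁻¹ ∈ RGD.Sup X (Q Pm) :=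
    fun {v g} => norm_Q R hV (by decide +kernel) (fun x _ h => h.1)
  have up : ∀ {g : Y}, g ∈ RGD.Sup X (Q Pv) → u * g * u⁻¹ * g⁻¹ ∈ RGD.Sup X (Q Pp) := fun {g} =>
    comm_mem_Q R (a := sr 1) (by decide +kernel) (P := Pp) np (by decide +kernel) hu
  have um : ∀ {g : Y}, g ∈ RGD.Sup X (Q Pv) → u' * g * u'⁻¹ * g⁻¹ ∈ RGD.Sup X (Q Pm) := fun {g} =>
    comm_mem_Q R (a := -sr 1) (by decide +kernel) (P := Pm) nm (by decide +kernel) hu'
  obtain ⟨a, ha, b, hb, rfl⟩ := split' R hV (P₁ := Pm) (P₂ := Pp) (by decide +kernel) (by decide +kernel)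
    (fun x _ h => h.1) (fun x _ h => h.1) hx
  -- `d = [u', b]`, `e = [u, a]`
  set d := u' * b * u'⁻¹ * b⁻¹ with hd
  set e := u * a * u⁻¹ * a⁻¹ with he
  have hdm : d ∈ RGD.Sup X (Q Pm) := um (hpv hb)
  have hep : e ∈ RGD.Sup X (Q Pp) := up (hmv ha)
  have hdp : u * d * u⁻¹ * d⁻¹ ∈ RGD.Sup X (Q Pp) := up (hmv hdm)
  have key : (u * u') * (a * b) * (u * u')⁻¹ * (a * b)⁻¹ =
      e * (a * (u * d * u⁻¹ * d⁻¹) * a⁻¹) * (a * d * a⁻¹) := by
    have e1 : u' * a * u'⁻¹ = a := by rw [cm ha]; group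
    have e2 : u * b * u⁻¹ = b := by rw [cp hb]; group
    calc (u * u') * (a * b) * (u * u')⁻¹ * (a * b)⁻¹
        = u * ((u' * a * u'⁻¹) * (u' * b * u'⁻¹ * b⁻¹) * b) * u⁻¹ * (a * b)⁻¹ := by group
      _ = u * (a * d * b) * u⁻¹ * (a * b)⁻¹ := by rw [e1]
      _ = (u * a * u⁻¹) * (u * d * u⁻¹) * (u * b * u⁻¹) * (a * b)⁻¹ := by group
      _ = (u * a * u⁻¹) * (u * d * u⁻¹) * b * (a * b)⁻¹ := by rw [e2]
      _ = e * (a * (u * d * u⁻¹ * d⁻¹) * a⁻¹) * (a * d * a⁻¹) := by rw [he]; group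
  rw [key] at hfix
  have hdZ : d ∈ X rho := by
    have h3 : a * d * a⁻¹ ∈ RGD.Sup X (Q Pp) := by
      have h4 := mul_mem (inv_mem (mul_mem hep (np (hmv ha) hdp))) (hZp hfix)
      have e3 : (e * (a * (u * d * u⁻¹ * d⁻¹) * a⁻¹))⁻¹ *
          (e * (a * (u * d * u⁻¹ * d⁻¹) * a⁻¹) * (a * d * a⁻¹)) = a * d * a⁻¹ := by group
      rwa [e3] at h4
    have h5 := hmeet (nm (hmv ha) hdm) h3
    have h6 : d = a * d * a⁻¹ := by
      have h7 := comm_rho R hlr h5 (hmv ha)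
      calc d = a⁻¹ * ((a * d * a⁻¹) * a) := by group
        _ = a⁻¹ * (a * (a * d * a⁻¹)) := by rw [h7]
        _ = a * d * a⁻¹ := by group
    rw [h6]; exact h5
  have heZ : e ∈ X rho := by
    have h3 : u * d * u⁻¹ * d⁻¹ = 1 := by rw [cp (hZp hdZ)]; group
    rw [h3] at hfix
    have h4 : a * d * a⁻¹ = d := by rw [← comm_rho R hlr hdZ (hmv ha)]; group
    rw [h4] at hfix
    have h5 := mul_mem hfix (inv_mem hdZ)
    have h6 : e * (a * 1 * a⁻¹) * d * d⁻¹ = e := by group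
    rwa [h6] at h5
  -- the reflection
  have : Finite W := finiteW cs
  obtain ⟨c, hc, t, ht, c', hc', hm⟩ := R.rk1 1 u' hu' hu1'
  have hcu : ∀ c ∈ X (sr 1), c = 1 ∨ c = u := by
    intro c hc
    by_cases h : c = 1
    · exact Or.inl h
    · exact Or.inr (eq_of_long R h2 (x := sr 1) (by decide +kernel) (by decide +kernel) hc hu h hu1)
  -- the elements commuting with `y` modulo `X rho`
  have cZ : ∀ {g : Y}, g ∈ X rho → u * g = g * u := fun {g} hg => cp (hZp hg)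
  have cZ' : ∀ {g : Y}, g ∈ X rho → u' * g = g * u' := fun {g} hg => cm (hZm hg)
  have hmem : ∀ y : Y, u * y * u⁻¹ * y⁻¹ ∈ X rho → u' * y * u'⁻¹ * y⁻¹ ∈ X rho →
      (t * n 1) * y * (t * n 1)⁻¹ * y⁻¹ ∈ X rho := by
    intro y h3 h4
    let E : Subgroup Y :=
      { carrier := {g | (∀ z ∈ X rho, g * z * g⁻¹ ∈ X rho) ∧ g * y * g⁻¹ * y⁻¹ ∈ X rho ∧
          (∀ z ∈ X rho, g⁻¹ * z * g ∈ X rho)}
        one_mem' := ⟨fun z hz => by rw [one_mul, inv_one, mul_one]; exact hz, by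
          rw [one_mul, inv_one, mul_one, mul_inv_cancel]; exact one_mem _,
          fun z hz => by rw [inv_one, one_mul, mul_one]; exact hz⟩
        mul_mem' := by
          rintro g g' ⟨h5, h6, h7⟩ ⟨h8, h9, h10⟩
          refine ⟨fun z hz => ?_, ?_, fun z hz => ?_⟩
          · have := h5 _ (h8 z hz)
            have e3 : g * g' * z * (g * g')⁻¹ = g * (g' * z * g'⁻¹) * g⁻¹ := by group
            rwa [e3]
          · have := mul_mem (h5 _ h9) h6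
            have e3 : g * g' * y * (g * g')⁻¹ * y⁻¹ = g * (g' * y * g'⁻¹ * y⁻¹) * g⁻¹ * (g * y * g⁻¹ * y⁻¹) := by group
            rwa [e3]
          · have := h10 _ (h7 z hz)
            have e3 : (g * g')⁻¹ * z * (g * g') = g'⁻¹ * (g⁻¹ * z * g) * g' := by group
            rwa [e3]
        inv_mem' := by
          rintro g ⟨h5, h6, h7⟩
          refine ⟨fun z hz => ?_, ?_, fun z hz => ?_⟩
          · have := h7 z hz
            rwa [inv_inv]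
          · have := h7 _ (inv_mem h6)
            have e3 : g⁻¹ * y * g⁻¹⁻¹ * y⁻¹ = g⁻¹ * (g * y * g⁻¹ * y⁻¹)⁻¹ * g := by group
            rwa [e3]
          · have := h5 z hz
            rwa [inv_inv] }
    have hE : u ∈ E := ⟨fun z hz => by rw [cZ hz, mul_inv_cancel_right]; exact hz, h3,
      fun z hz => by
        have : u⁻¹ * z * u = z := by rw [mul_assoc, ← cZ hz]; group
        rw [this]; exact hz⟩
    have hE' : u' ∈ E := ⟨fun z hz => by rw [cZ' hz, mul_inv_cancel_right]; exact hz, h4,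
      fun z hz => by
        have : u'⁻¹ * z * u' = z := by rw [mul_assoc, ← cZ' hz]; group
        rw [this]; exact hz⟩
    have hcE : ∀ c ∈ X (sr 1), c ∈ E := by
      intro c hc
      rcases hcu c hc with h | h
      · rw [h]; exact one_mem _
      · rw [h]; exact hE
    have hmE : t * n 1 ∈ E := by
      have e3 : t * n 1 = c⁻¹ * u' * c'⁻¹ := by rw [hm]; group
      rw [e3]
      exact mul_mem (mul_mem (inv_mem (hcE c hc)) hE') (inv_mem (hcE c' hc'))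
    exact hmE.2.1
  have hroot : ∀ P : (Fin 4 → ℤ) → Prop, ∀ x ∈ Q P, IsRoot cs isCartan x := fun P x hx => (mem_rts cs).2 hx.1
  have hsw : ∀ {y : Y}, y ∈ RGD.Sup X (Q Pm) → (t * n 1) * y * (t * n 1)⁻¹ ∈ RGD.Sup X (Q Pp) := by
    intro y hy
    have h3 := conj_n R (i := 1) (P := Pm) (P' := Pp) (by decide +kernel) hy
    have h4 := (Subgroup.mem_normalizer_iff.1 (R.T_le_normalizer (hroot Pp) ht) _).1 h3
    have e3 : t * n 1 * y * (t * n 1)⁻¹ = t * (n 1 * y * (n 1)⁻¹) * t⁻¹ := by group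
    rwa [e3]
  have hsw' : ∀ {y : Y}, y ∈ RGD.Sup X (Q Pp) → (t * n 1) * y * (t * n 1)⁻¹ ∈ RGD.Sup X (Q Pm) := by
    intro y hy
    have h3 := conj_n R (i := 1) (P := Pp) (P' := Pm) (by decide +kernel) hy
    have h4 := (Subgroup.mem_normalizer_iff.1 (R.T_le_normalizer (hroot Pm) ht) _).1 h3
    have e3 : t * n 1 * y * (t * n 1)⁻¹ = t * (n 1 * y * (n 1)⁻¹) * t⁻¹ := by group
    rwa [e3]
  have haZ : a ∈ X rho := by
    have h3 := hmem a heZ (by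
      have : u' * a * u'⁻¹ * a⁻¹ = 1 := by rw [cm ha]; group
      rw [this]; exact one_mem _)
    have h4 := hsw ha
    refine hmeet ha ?_
    have h5 := mul_mem (inv_mem (hZp h3)) h4
    have e3 : (t * n 1 * a * (t * n 1)⁻¹ * a⁻¹)⁻¹ * (t * n 1 * a * (t * n 1)⁻¹) = a := by group
    rwa [e3] at h5
  have hbZ : b ∈ X rho := by
    have h3 := hmem b (by
      have : u * b * u⁻¹ * b⁻¹ = 1 := by rw [cp hb]; group
      rw [this]; exact one_mem _) hdZ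
    have h4 := hsw' hb
    refine hmeet ?_ hb
    have h5 := mul_mem (inv_mem (hZm h3)) h4
    have e3 : (t * n 1 * b * (t * n 1)⁻¹ * b⁻¹)⁻¹ * (t * n 1 * b * (t * n 1)⁻¹) = b := by group
    rwa [e3] at h5
  exact mul_mem haZ hbZ

omit hlr in
/-- the order of `A₊ X θ` -/
theorem card_half [Finite Y] {P : (Fin 4 → ℤ) → Prop} [DecidablePred P] (hpos : ∀ x ∈ rts, P x → ∀ k, 0 ≤ x k)
    (hcl : ∀ x ∈ rts, P x → ∀ y ∈ rts, P y → x = y ∨ (x ≠ -y ∧ ∀ z ∈ rts, bt x y z → P z)) (h0 : P rho)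
    (hcard : 5 ≤ ((rts.toFinset.filter P).erase rho).card) :
    32 * Nat.card (X rho) ≤ Nat.card (RGD.Sup X (Q P)) := by
  classical
  have : Finite W := finiteW cs
  have e : (Q P : Set (Fin 4 → ℤ)) = ((rts.toFinset.filter P : Finset (Fin 4 → ℤ)) : Set (Fin 4 → ℤ)) := by
    ext x
    simp [Q]
  have h1 := Cfsg.Agent.Nodes.CardSup.card_sup R (s := rts.toFinset.filter P) (by rw [← e]; exact pos_Q hpos)
    (by rw [← e]; exact closed_Q hcl)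
  rw [← e] at h1
  rw [h1, ← Finset.mul_prod_erase _ _ (a := rho) (Finset.mem_filter.2 ⟨List.mem_toFinset.2 (by decide +kernel), h0⟩),
    mul_comm]
  refine Nat.mul_le_mul le_rfl ?_
  have h3 : ∀ x ∈ (rts.toFinset.filter P).erase rho, 2 ≤ Nat.card (X x) := by
    intro x hx
    have hx' : IsRoot cs isCartan x := (mem_rts cs).2 (List.mem_toFinset.1 (Finset.mem_filter.1 (Finset.mem_of_mem_erase hx)).1)
    have h4 := X_ne_bot R hx'
    have h5 := (Subgroup.one_lt_card_iff_ne_bot (X x)).2 h4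
    omega
  calc 32 = 2 ^ 5 := by norm_num
    _ ≤ 2 ^ ((rts.toFinset.filter P).erase rho).card := Nat.pow_le_pow_right (by norm_num) hcard
    _ ≤ _ := Finset.pow_card_le_prod _ _ _ h3

/-- **K7 (B)** -/
theorem fix_card [Finite Y] (hV : ∀ v ∈ RGD.Sup X (Q Pv), ∀ w ∈ RGD.Sup X (Q Pv), v * w * v⁻¹ * w⁻¹ ∈ X rho)
    (h2 : ∀ a ∈ X (sr 0), ∀ b ∈ X (sr 0), a ≠ 1 → b ≠ 1 → a = b) {u u' : Y} (hu : u ∈ X (sr 1)) (hu1 : u ≠ 1)
    (hu' : u' ∈ X (-sr 1)) (hu1' : u' ≠ 1) :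
    1024 * Nat.card {x : Y // x ∈ RGD.Sup X (Q Pv) ∧ (u * u') * x * (u * u')⁻¹ * x⁻¹ ∈ X rho} ≤
      Nat.card (RGD.Sup X (Q Pv)) := by
  set V : Subgroup Y := RGD.Sup X (Q Pv) with hVdef
  set t := u * u' with ht
  have hZV : X rho ≤ V := RGD.le_Sup (S := Q Pv) ⟨by decide +kernel, by decide +kernel⟩
  have hcen : ∀ z ∈ X rho, ∀ v ∈ V, z * v = v * z := fun z hz v hv => comm_rho R hlr hz hv
  -- `t` centralises `X rho`
  have htZ : ∀ z ∈ X rho, t * z = z * t := by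
    intro z hz
    have h3 : u * z = z * u := comm_Q R hlr (a := sr 1) (by decide +kernel) (by decide +kernel) (P := fun x => x = rho)
      (by decide +kernel) hu (RGD.le_Sup (S := Q (fun x => x = rho)) ⟨by decide +kernel, rfl⟩ hz)
    have h4 : u' * z = z * u' := comm_Q R hlr (a := -sr 1) (by decide +kernel) (by decide +kernel)
      (P := fun x => x = rho) (by decide +kernel) hu'
      (RGD.le_Sup (S := Q (fun x => x = rho)) ⟨by decide +kernel, rfl⟩ hz)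
    calc t * z = u * (u' * z) := by rw [ht]; group
      _ = (u * z) * u' := by rw [h4]; group
      _ = z * t := by rw [h3, ht]; group
  let S : Subgroup Y :=
    { carrier := {x | x ∈ V ∧ t * x * t⁻¹ * x⁻¹ ∈ X rho}
      one_mem' := ⟨one_mem _, by rw [mul_one, mul_inv_cancel, inv_one, mul_one]; exact one_mem _⟩
      mul_mem' := by
        rintro g g' ⟨h1, h3⟩ ⟨h4, h5⟩
        refine ⟨mul_mem h1 h4, ?_⟩
        have e : t * (g * g') * t⁻¹ * (g * g')⁻¹ =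
            (t * g * t⁻¹ * g⁻¹) * (g * (t * g' * t⁻¹ * g'⁻¹) * g⁻¹) := by group
        have e2 : g * (t * g' * t⁻¹ * g'⁻¹) * g⁻¹ = t * g' * t⁻¹ * g'⁻¹ := by
          rw [← hcen _ h5 g h1]; group
        rw [e, e2]
        exact mul_mem h3 h5
      inv_mem' := by
        rintro g ⟨h1, h3⟩
        refine ⟨inv_mem h1, ?_⟩
        have e : t * g⁻¹ * t⁻¹ * g⁻¹⁻¹ = g⁻¹ * (t * g * t⁻¹ * g⁻¹)⁻¹ * g := by group
        have e2 : g⁻¹ * (t * g * t⁻¹ * g⁻¹)⁻¹ * g = (t * g * t⁻¹ * g⁻¹)⁻¹ := by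
          rw [mul_assoc, hcen _ (inv_mem h3) g h1]; group
        rw [e, e2]
        exact inv_mem h3 }
  have hS : Nat.card {x : Y // x ∈ V ∧ t * x * t⁻¹ * x⁻¹ ∈ X rho} = Nat.card S := rfl
  have hSV : S ≤ V := fun x hx => hx.1
  set C : Subgroup Y := RGD.Sup X (Q Pc) with hC
  have hCV : C ≤ V := RGD.Sup_mono fun x hx => ⟨hx.1, hx.2.1⟩
  have hSC : S ⊓ C = X rho := by
    apply le_antisymm
    · rintro x ⟨⟨-, h1⟩, h3⟩
      exact core R hlr hV h2 hu hu1 hu' hu1' h3 h1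
    · intro z hz
      refine ⟨⟨hZV hz, ?_⟩, ?_⟩
      · rw [htZ z hz, mul_inv_cancel_right, mul_inv_cancel]; exact one_mem _
      · exact RGD.le_Sup (S := Q Pc) ⟨by decide +kernel, by decide +kernel⟩ hz
  set Bp : Subgroup Y := RGD.Sup X (Q Pp) with hBp
  set Bm : Subgroup Y := RGD.Sup X (Q Pm) with hBm
  have hBC : Bp ≤ C := RGD.Sup_mono fun x hx => ⟨hx.1, hx.2.1, hx.2.2.imp_right fun h => h.ne'⟩
  have hBC' : Bm ≤ C := RGD.Sup_mono fun x hx => ⟨hx.1, hx.2.1, hx.2.2.imp_right fun h => h.ne⟩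
  have hmeet : Bm ⊓ Bp = X rho := by
    rw [hBm, hBp, inf_Q R, Sup_single R (by decide +kernel)]
  have hZp : X rho ≤ Bp := hmeet ▸ inf_le_right
  have hZm : X rho ≤ Bm := hmeet ▸ inf_le_left
  have hpos : 0 < Nat.card (X rho) := Nat.card_pos
  have h5 : 32 ≤ (X rho).relIndex Bp := by
    have h6 := card_half R (P := Pp) (by decide +kernel) (by decide +kernel) (by decide +kernel) (by decide +kernel)
    have h7 := relIndex_mul_card' (X rho) Bp hZp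
    rw [← hBp, ← h7] at h6
    exact Nat.le_of_mul_le_mul_right h6 hpos
  have h6 : 32 ≤ (X rho).relIndex Bm := by
    have h6 := card_half R (P := Pm) (by decide +kernel) (by decide +kernel) (by decide +kernel) (by decide +kernel)
    have h7 := relIndex_mul_card' (X rho) Bm hZm
    rw [← hBm, ← h7] at h6
    exact Nat.le_of_mul_le_mul_right h6 hpos
  have hfin : ∀ A B : Subgroup Y, A.relIndex B ≠ 0 := fun A B => by
    unfold Subgroup.relIndex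
    exact Subgroup.index_ne_zero_of_finite
  have h7 : 1024 ≤ (X rho).relIndex C := by
    have h8 : (X rho).relIndex Bp * Bp.relIndex C = (X rho).relIndex C := Subgroup.relIndex_mul_relIndex _ _ _ hZp hBC
    have h9 : (X rho).relIndex Bm ≤ Bp.relIndex C := by
      rw [← hmeet, Subgroup.inf_relIndex_left]
      exact Subgroup.relIndex_le_of_le_right hBC' (hfin _ _)
    rw [← h8]
    calc 1024 = 32 * 32 := by norm_num
      _ ≤ _ := Nat.mul_le_mul h5 (le_trans h6 h9)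
  have h8 : (X rho).relIndex C ≤ S.relIndex V := by
    rw [← hSC, Subgroup.inf_relIndex_right]
    exact Subgroup.relIndex_le_of_le_right hCV (hfin _ _)
  have h9 := relIndex_mul_card' S V hSV
  rw [hS, ← h9]
  exact Nat.mul_le_mul_right _ (le_trans h7 h8)

end

end

end Cfsg.Agent.H259.QF
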