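import Cfsg.Agent.H259.QF.Rk
import Cfsg.Agent.H326.QS.VPE
import Cfsg.Agent.H594.QF.VOne
import Cfsg.Agent.H150.QF.KFive

/-!
# S2491, row F4 = `²E₆(2)`, K7 (B) in the group `KK F`
-/

set_option autoImplicit false
set_option linter.unusedSectionVars false
set_option maxRecDepth 20000

namespace Cfsg.Agent.H259.QF

open CoxeterSystem Cfsg.Agent.ChevalleyStructure.CoxeterGeom Cfsg.Agent.Tits.Roots Cfsg.Agent.Tits.Core
  Cfsg.Agent.Nodes.Reps Cfsg.Agent.Nodes.BNOf Cfsg.Agent.Nodes.Bruhat Cfsg.Agent.Nodes.LeviDec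
open Cfsg.Agent.Nodes.RGDTwE6 (isCartan)
open Cfsg.Agent.KFacts.TwESix.Comb (rho bf mem_rts)
open Cfsg.Agent.H326.QS.VP (Q NotJ_eq eq_of_card)
open Cfsg.Agent.H231.QF (KK cs th V j1)
open Cfsg.Lie Subgroup

universe u

variable {F : Type u} [Field F] [Fintype F] (hF : Fintype.card F = 4) {φ : F →+* F} (hφ : ∀ t, φ t = t ^ 2)

theorem j1_eq : j1 = ({1, 2, 3} : Set (Fin 4)) := by
  ext k
  show k ≠ 0 ↔ _
  fin_cases k <;> simp

theorem V_eq' : V φ j1 = RGD.Sup (Cfsg.Agent.H231.QF.X φ) (Q Pv) := by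
  show VJ cs isCartan (Cfsg.Agent.H231.QF.X φ) j1 = _
  unfold VJ
  rw [j1_eq, NotJ_eq]

include hF hφ

theorem card_sr0 : Nat.card ↥(Cfsg.Agent.H231.QF.X φ (sr 0)) = 2 :=
  have : CharP F 2 := H150.QF.charTwo_of hF
  H326.QS.VPE.card_X0 hφ (H150.QF.hqq_of hF)

/-- **K7 (B)** in `KK F` -/
theorem fix_card_KK {a b : KK F} (ha : a ∈ Cfsg.Agent.H231.QF.X φ (sr 1)) (ha1 : a ≠ 1)
    (hb : b ∈ Cfsg.Agent.H231.QF.X φ (-sr 1)) (hb1 : b ≠ 1) :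
    1024 * Nat.card {x : KK F // x ∈ V φ j1 ∧ (a * b) * x * (a * b)⁻¹ * x⁻¹ ∈ Cfsg.Agent.H231.QF.X φ th} ≤
      Nat.card (V φ j1) := by
  have : CharP F 2 := H150.QF.charTwo_of hF
  have : Fact (Nat.Prime 2) := ⟨Nat.prime_two⟩
  have R := H150.QF.rgdK hF hφ
  have hlr : ∀ a, IsRoot cs isCartan a → bf a a = 4 → Cfsg.Agent.KFacts.RgdTI.LR R a := fun a ha hl =>
    Cfsg.Agent.KFacts.TwESix.Grp.lr_long cs hφ (H150.QF.hqq_of hF) 2 ha hl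
  have hV := (H594.QF.V1_struct hF hφ).1
  rw [V_eq'] at hV ⊢
  exact fix_card R hlr hV (eq_of_card (card_sr0 hF hφ)) ha ha1 hb hb1

end Cfsg.Agent.H259.QF
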